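import Cfsg.Agent.Sing.PerC
import Cfsg.Agent.Class.Max.Lin
import Cfsg.Agent.S4179

/-!
# The Cameron–Kantor theorem in prime dimension `≥ 7`
-/

set_option autoImplicit false
set_option linter.unusedSectionVars false
set_option linter.style.haveILetI false

namespace Cfsg.Agent.Sing

open MulAction Pointwise Cfsg.Agent.Proj.CK

open Cfsg.Agent.Class.Max

variable {F V : Type*} [Field F] [AddCommGroup V] [Module F V] [Finite F] [Finite V]

/-- (Proof actually used: for a flag `(v, ψ)`, `T = {s | HasTv H ψ (s • v)}`, `w ∈ ker ψ \ F∙v`; by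
a commutator `{(c, μ) | HasTv H ψ (c w + μ v)}` has at most `|T|²` elements, by flag transitivity
at least `q (|T| - 1) + |T|`.)  Fix `a ≠ 0`.  `E = {φ | φ a = 0 ∧ HasTv H φ a}` is an additive group (`add_left`, `neg_left`),
`T φ = {c | HasTv H (c • φ) a}` an additive subgroup of `F`; by `hfl` and `HasTv.conj` all `T φ`
(`0 ≠ φ`, `φ a = 0`) have the same order `t = p^s ≥ 2`.  Counting pairs `(c, φ)`, `c ≠ 0 ≠ φ`,
`c • φ ∈ E`: `(q^k - 1)(t - 1) = (q - 1)(|E| - 1)`, `k = n - 1 ≥ 2`, so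
`|E| = t + q g (t - 1)` with `g = geo q (k-1) > 0`.  `|E|` is a power of `p`; if `t < q` then
`|E| / t = 1 + (q/t) g (t-1)` is a power of `p`, `> 1` and `≡ 1 mod p`.  So `T φ = F`. -/
theorem all_tv {H : Subgroup (V ≃ₗ[F] V)} (h3 : 3 ≤ Module.finrank F V)
    (hfl : ∀ (x x' : V) (φ φ' : V →ₗ[F] F), x ≠ 0 → x' ≠ 0 → φ ≠ 0 → φ' ≠ 0 → φ x = 0 →
      φ' x' = 0 → ∃ g ∈ H, g x = x' ∧ ∃ c : F, c ≠ 0 ∧ φ ∘ₗ (g⁻¹ : V ≃ₗ[F] V).toLinearMap = c • φ')
    {a : V} {φ : V →ₗ[F] F} (ha : a ≠ 0) (hφ : φ ≠ 0) (e : φ a = 0) (h : HasTv H φ a) :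
    SLV F V ≤ H := by
  haveI : FiniteDimensional F V := Module.Finite.of_finite
  refine SLV_le_of_tv fun ψ v hψv => ?_
  by_cases hψ : ψ = 0
  · rw [hψ]; exact hasTv_zero_left _
  by_cases hv : v = 0
  · rw [hv]; exact hasTv_zero_right _
  -- every flag carries a transvection
  have ex : ∀ (χ : V →ₗ[F] F) (w : V), χ ≠ 0 → w ≠ 0 → χ w = 0 →
      ∃ c : F, c ≠ 0 ∧ HasTv H χ (c • w) := fun χ w h1 h2 h3 => by
    obtain ⟨g, hg, rfl, c, hc, e1⟩ := hfl a w φ χ ha h2 hφ h1 e h3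
    exact ⟨c, hc, (hasTv_smul_iff c).1 (e1 ▸ h.conj hg)⟩
  have mv : ∀ w : V, w ≠ 0 → ψ w = 0 →
      ∃ c : F, c ≠ 0 ∧ ∀ s : F, HasTv H ψ (s • v) → HasTv H ψ ((c * s) • w) := fun w h2 h3 => by
    obtain ⟨g, hg, rfl, c, hc, e1⟩ := hfl v w ψ ψ hv h2 hψ hψ hψv h3
    refine ⟨c, hc, fun s hs => ?_⟩
    have := hs.conj hg
    rwa [e1, hasTv_smul_iff, map_smul, smul_smul] at this
  obtain ⟨w, hw1, hw2⟩ : ∃ w ∈ LinearMap.ker ψ, w ∉ (F ∙ v) := by
    by_contra! hc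
    have h1 := Submodule.finrank_mono (show LinearMap.ker ψ ≤ (F ∙ v) from hc)
    have h2 := LinearMap.finrank_range_add_finrank_ker ψ
    have h4 := (LinearMap.range ψ).finrank_le
    rw [finrank_span_singleton hv] at h1
    rw [Module.finrank_self] at h4
    omega
  have hw1' : ψ w = 0 := hw1
  obtain ⟨χ, hχ1, hχ2⟩ := exists_dual_one (F ∙ v) hw2
  have hχv : χ v = 0 := hχ1 v (self_mem_pt v)
  obtain ⟨d, hd, hd'⟩ := ex χ v (by rintro rfl; simp at hχ2) hv hχv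
  have up : ∀ c μ : F, HasTv H ψ (c • w + μ • v) → HasTv H ψ ((d * c) • v) := fun c μ h1 => by
    have := HasTv.comm (by simp [hχv]) (by simp [hw1', hψv]) (by simp [hψv]) hd' h1
    simpa [hχv, hχ2, smul_smul, mul_comm] using this
  have h0 : ∀ l : F, w + l • v ≠ 0 := fun l => ne0_of_not_mem (add_not_mem_pt hw2 l)
  choose c hc0 hc using fun l : F => mv (w + l • v) (h0 l) (by simp [hw1', hψv])
  have hc' : ∀ l s : F, HasTv H ψ (s • v) → HasTv H ψ ((c l * s) • w + (c l * s * l) • v) :=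
    fun l s hs => by simpa only [smul_add, smul_smul] using hc l s hs
  obtain ⟨μ, hμ⟩ : ∃ μ : F → F, ∀ c ν : F, HasTv H ψ (c • w + ν • v) →
      HasTv H ψ ((ν - μ c) • v) := by
    classical
    refine ⟨fun c => if h : ∃ ν : F, HasTv H ψ (c • w + ν • v) then h.choose else 0,
      fun c ν h1 => ?_⟩
    have h2 : ∃ ν : F, HasTv H ψ (c • w + ν • v) := ⟨ν, h1⟩
    simp only [dif_pos h2]
    have h3 := h2.choose_spec
    generalize h2.choose = ν' at h3
    have := HasTv.add_right (by simp [hw1', hψv]) h1 (h3.neg_right (by simp [hw1', hψv]))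
    convert this using 1
    module
  let Φ : F × {s : F // s ≠ 0 ∧ HasTv H ψ (s • v)} →
      {s : F // HasTv H ψ (s • v)} × {s : F // s ≠ 0 ∧ HasTv H ψ (s • v)} := fun p =>
    (⟨c p.1 * p.2.1 * p.1 - μ (c p.1 * p.2.1), hμ _ _ (hc' _ _ p.2.2.2)⟩,
      ⟨d * (c p.1 * p.2.1), mul_ne_zero hd (mul_ne_zero (hc0 _) p.2.2.1), up _ _ (hc' _ _ p.2.2.2)⟩)
  have inj : Function.Injective Φ := by
    rintro ⟨l, s⟩ ⟨l', s'⟩ e1
    have e2 : c l * s.1 = c l' * s'.1 := mul_left_cancel₀ hd (congrArg (fun p => p.2.1) e1)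
    have e3 : c l * s.1 * l - μ (c l * s.1) = c l' * s'.1 * l' - μ (c l' * s'.1) :=
      congrArg (fun p => p.1.1) e1
    rw [← e2, sub_left_inj] at e3
    obtain rfl := mul_left_cancel₀ (mul_ne_zero (hc0 l) s.2.1) e3
    exact Prod.ext rfl (Subtype.ext (mul_left_cancel₀ (hc0 l) e2))
  have hle := Nat.card_le_card_of_injective Φ inj
  haveI : Nonempty {s : F // s ≠ 0 ∧ HasTv H ψ (s • v)} :=
    let ⟨s, hs⟩ := ex ψ v hψ hv hψv; ⟨⟨s, hs⟩⟩
  rw [Nat.card_prod, Nat.card_prod] at hle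
  obtain ⟨s, hs⟩ := ((Subtype.val_injective (p := fun s : F => HasTv H ψ (s • v))
    ).bijective_of_nat_card_le (Nat.le_of_mul_le_mul_right hle Nat.card_pos)).2 1
  simpa [hs] using s.2

/-- contragredient action -/
@[reducible] def tvDualAct (H : Subgroup (V ≃ₗ[F] V)) : DistribMulAction H (Module.Dual F V) where
  smul g φ := φ ∘ₗ (g⁻¹ : H).1.toLinearMap
  one_smul _ := rfl
  mul_smul g h φ := LinearMap.ext fun v => by
    show φ (((g * h)⁻¹ : H).1 v) = φ ((h⁻¹ : H).1 ((g⁻¹ : H).1 v))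
    rw [mul_inv_rev]; rfl
  smul_zero _ := rfl
  smul_add _ _ _ := rfl

/-- `q = 2`: `F ≃+* ZMod 2`; transport the module structure (`Module.compHom`/`Algebra`; additive
maps are linear over both) and use `S4179.eq_top_of_t2`.  `q ≥ 3`: build `St F H V (Dual F V)` as in
`S4179.eq_top_of_t2` (contragredient action, `Z` = scalars of `H`, `Pr.card_eq`, `Pr.t2_dual`,
`s = n - 3` even `≥ 4`), `St.exists_tv`, `Pr.tr_flag`, `all_tv`. -/
theorem SLV_le_of_t2 (hn : (Module.finrank F V).Prime) (h7 : 7 ≤ Module.finrank F V)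
    (H : Subgroup (V ≃ₗ[F] V)) (hZ : ∀ c : F, c ≠ 0 → ∃ g ∈ H, ∀ v, g v = c • v)
    (h : T2 F H V) : SLV F V ≤ H := by
  have cV : Nat.card V = Nat.card F ^ Module.finrank F V := Module.natCard_eq_pow_finrank
  rcases (two_le_q (F := F)).eq_or_lt with hq | hq
  · have h1 : ∀ c : F, c ≠ 0 → c = 1 := fun c hc =>
      ((Nat.card_eq_two_iff' (0 : F)).1 hq.symm).unique hc one_ne_zero
    have h2 : (1 + 1 : F) = 0 := by
      by_contra hc
      exact one_ne_zero (add_left_cancel ((h1 _ hc).trans (add_zero 1).symm))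
    letI : Module (ZMod 2) V := AddCommGroup.zmodModule fun x => by
      rw [two_nsmul, ← one_smul F x, ← add_smul, h2, zero_smul]
    haveI : SMulCommClass (V ≃ₗ[F] V) (ZMod 2) V := ⟨fun g c v => ZMod.map_smul g c v⟩
    have hr : Module.finrank (ZMod 2) V = Module.finrank F V := by
      apply Nat.pow_right_injective (le_refl 2)
      have := Module.natCard_eq_pow_finrank (K := ZMod 2) (V := V)
      rw [Nat.card_zmod, cV, ← hq] at this
      exact this.symm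
    have nm : ∀ {x y : V}, y ≠ 0 → y ≠ x → y ∉ (F ∙ x) := fun {x y} hy hyx hc => by
      obtain ⟨c, rfl⟩ := mem_pt.1 hc
      exact hyx (by rw [h1 c (by rintro rfl; simp at hy), one_smul])
    have := S4179.eq_top_of_t2 hr hn (H.map (DistribMulAction.toModuleAut (ZMod 2) V))
      fun x y x' y' hx hy hyx hx' hy' hyx' => by
        obtain ⟨g, g1, g2⟩ := h x y x' y' hx (nm hy hyx) hx' (nm hy' hyx')
        rw [smul_pt, pt_eq_iff] at g1
        obtain ⟨c, hc, g1⟩ := g1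
        rw [h1 c hc, one_smul] at g1
        exact ⟨⟨_, g, g.2, rfl⟩, g1, g2⟩
    intro g _
    obtain ⟨k, hk, e⟩ : DistribMulAction.toModuleAut (ZMod 2) V g ∈
      H.map (DistribMulAction.toModuleAut (ZMod 2) V) := this ▸ Subgroup.mem_top _
    rwa [← show k = g from LinearEquiv.ext fun v => LinearEquiv.congr_fun e v]
  letI := tvDualAct H
  haveI : SMulCommClass H F (Module.Dual F V) := ⟨fun _ _ _ => rfl⟩
  haveI : Finite (Module.Dual F V) :=
    Finite.of_injective (fun φ => (φ : V → F)) DFunLike.coe_injective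
  haveI : Finite (V ≃ₗ[F] V) :=
    Finite.of_injective (fun φ => (φ : V → V)) DFunLike.coe_injective
  have h4 : Nat.card F ^ 2 ≤ Nat.card V := cV ▸ Nat.pow_le_pow_right Nat.card_pos (by omega)
  have hi : ∀ (g : H) (c : F), c ≠ 0 → (∀ v : V, g • v = c • v) → ∀ v : V, g⁻¹ • v = c⁻¹ • v :=
    fun g c hc e v => by rw [inv_smul_eq_iff, e, smul_inv_smul₀ hc]
  let P : Pr F H V (Module.Dual F V) :=
    { b := Module.Dual.eval F V
      inv := fun g v φ => congrArg φ (inv_smul_smul g v)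
      sepL := fun v hv => (Module.forall_dual_apply_eq_zero_iff F v).1 hv
      sepR := fun φ hφ => LinearMap.ext hφ
      Z := { carrier := {g | ∃ c : F, c ≠ 0 ∧ ∀ v : V, g • v = c • v}
             one_mem' := ⟨1, one_ne_zero, fun v => by rw [one_smul, one_smul]⟩
             mul_mem' := fun {g k} ⟨c, hc, e⟩ ⟨d, hd, e'⟩ =>
               ⟨c * d, mul_ne_zero hc hd, fun v => by rw [mul_smul, mul_smul, e', e]⟩
             inv_mem' := fun {g} ⟨c, hc, e⟩ => ⟨c⁻¹, inv_ne_zero hc, hi g c hc e⟩ }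
      zv := fun c hc => let ⟨g, hg, e⟩ := hZ c hc; ⟨⟨g, hg⟩, ⟨c, hc, e⟩, e⟩
      zv' := fun c hc => by
        obtain ⟨g, hg, e⟩ := hZ c⁻¹ (inv_ne_zero hc)
        refine ⟨⟨g, hg⟩, ⟨_, inv_ne_zero hc, e⟩, fun φ => LinearMap.ext fun v => ?_⟩
        have := congrArg φ (hi ⟨g, hg⟩ _ (inv_ne_zero hc) e v)
        rw [inv_inv, φ.map_smul c] at this
        exact this
      sv := fun g ⟨c, _, e⟩ => ⟨c, e⟩
      sv' := fun g ⟨c, hc, e⟩ => ⟨c⁻¹, fun φ => LinearMap.ext fun v => by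
        have := congrArg φ (hi g _ hc e v)
        rw [φ.map_smul c⁻¹] at this
        exact this⟩ }
  have hf : ∀ g : H, (∀ v : V, g • v = v) → g = 1 := fun g hg => Subtype.ext (LinearEquiv.ext hg)
  obtain ⟨s, hs⟩ : ∃ s, Module.finrank F V = s + 3 := ⟨Module.finrank F V - 3, by omega⟩
  obtain ⟨t, a, φ, a0, φ0, e, ht⟩ := St.exists_tv
    ⟨P, s, hs ▸ cV, P.card_eq.trans (hs ▸ cV), h, P.t2_dual h h4⟩ hq (by
      obtain ⟨k, hk⟩ := hn.odd_of_ne_two (by omega)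
      exact ⟨k - 1, show s = _ by omega⟩) (show 4 ≤ s by omega) hf
  refine all_tv (by omega) (fun x x' ψ ψ' hx hx' hψ hψ' e1 e2 => ?_) a0 φ0 e ⟨t, t.2, ht⟩
  obtain ⟨g, g1, g2⟩ := P.tr_flag h h4 hx hx' hψ hψ' (iff_of_true e1 e2)
  rw [smul_pt, eq_comm, pt_eq_iff] at g2
  obtain ⟨c, hc, g2⟩ := g2
  exact ⟨g, g.2, g1, c, hc, g2.symm⟩

end Cfsg.Agent.Sing
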