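import Cfsg.Agent.Sing.ChZ
import Cfsg.Agent.Sing.TI
import Cfsg.Agent.Sing.G1
import Cfsg.Agent.Sing.G4
import Cfsg.Agent.Sing.Tv
import Cfsg.Agent.Class.Max.C3Lin

/-!
# The Singer normaliser is maximal in `SL_n(q)`, `n ≥ 13` prime
-/

set_option autoImplicit false
set_option linter.unusedSectionVars false
set_option linter.style.haveILetI false

namespace Cfsg.Agent.Sing

open MulAction Pointwise Cfsg.Agent.Proj.CK

open Cfsg.Agent.Class.Max Polynomial

section

variable {F K G : Type*} [Field F] [Field K] [Algebra F K] [Finite F] [Finite K] [Group G]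
  [Finite G] [DistribMulAction G K] [SMulCommClass G F K] {σ : G} {n : ℕ}

theorem Sg.t2_or (D : Sg F K σ n) : T2 F G K ∨ ∀ g : G, g ∈ sN K G := by
  obtain ⟨h, T, hP⟩ := D.tiz
  haveI : Finite (Submodule F K) := Finite.of_injective _ SetLike.coe_injective
  rcases T.dich (Set.toFinite _) (inv_pts ⊤) hP D.Z_triv D.semireg with C | C
  · left
    by_cases hd : n ∣ Nat.card F - 1
    · exact (D.gh hd C).t2 D.hZ
    · exact D.t2_of_not_dvd hd C
  · exact Or.inr (D.of_cII C)

end

variable {F K : Type*} [Field F] [Field K] [Algebra F K] [Finite F] [Finite K]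

theorem exists_frob (ho : Odd (Module.finrank F K)) :
    ∃ σ ∈ GamL F K K ⊓ SLV F K, ∀ x : K, σ x = x ^ Nat.card F := by
  haveI := Fintype.ofFinite F
  let e := FiniteField.frobeniusAlgEquivOfAlgebraic F K
  refine ⟨e.toLinearEquiv, ⟨⟨fun k => ⟨e k, fun v => map_mul e k v⟩,
    fun k => ⟨e.symm k, fun v => by simp⟩⟩, mem_SLV.2 ?_⟩, fun x => by
      rw [Nat.card_eq_fintype_card]; rfl⟩
  have h0 : (e.toLinearEquiv : K →ₗ[F] K) = (FiniteField.frobeniusAlgHom F K).toLinearMap :=
    LinearMap.ext fun _ => rfl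
  rw [h0]
  set f := (FiniteField.frobeniusAlgHom F K).toLinearMap
  have h1 : minpoly F f = X ^ Module.finrank F K - 1 := FiniteField.minpoly_frobeniusAlgHom F K
  have h2 : f.charpoly = X ^ Module.finrank F K - 1 := by
    refine eq_of_monic_of_dvd_of_natDegree_le ?_ f.charpoly_monic (h1 ▸ f.minpoly_dvd_charpoly) ?_
    · exact monic_X_pow_sub_C 1 Module.finrank_pos.ne'
    · rw [f.charpoly_natDegree, ← C_1, natDegree_X_pow_sub_C]
  rw [LinearMap.det_eq_sign_charpoly_coeff, h2, ho.neg_one_pow, coeff_sub, coeff_X_pow,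
    if_neg Module.finrank_pos.ne]
  simp

theorem exists_not_GamL (hp : (Module.finrank F K).Prime) (h3 : 3 ≤ Module.finrank F K) :
    ∃ g ∈ SLV F K, g ∉ GamL F K K ⊓ SLV F K := by
  have hq := two_le_q (F := F)
  have cK : Nat.card K = Nat.card F ^ Module.finrank F K := Module.natCard_eq_pow_finrank
  obtain ⟨a, -, ha⟩ := exists_not_mem_of_card_lt (T := (⊤ : Submodule F K)) (X := F ∙ (1 : K)) (by
    rw [card_pt one_ne_zero, card_top, cK]
    exact lt_of_lt_of_le (by nlinarith) (Nat.pow_le_pow_right (by omega) (show 2 ≤ _ by omega)))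
  obtain ⟨b, -, hb⟩ := exists_not_mem_of_card_lt (T := (⊤ : Submodule F K)) (X := pl F (1 : K) a) (by
    rw [card_pl one_ne_zero ha, card_top, cK]
    exact Nat.pow_lt_pow_right (by omega) (by omega))
  obtain ⟨φ, h1, h2⟩ := exists_dual_one (pl F (1 : K) a) hb
  obtain ⟨t, ht, e⟩ := hasTv_SLV (φ := φ) (v := (1 : K)) (h1 _ (left_mem_pl _ _))
  refine ⟨t, ht, fun hc => ?_⟩
  have t1 : t 1 = 1 := by rw [e, h1 _ (left_mem_pl _ _), zero_smul, add_zero]
  let S : Subalgebra F K :=
    { carrier := {x | t x = x}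
      mul_mem' := fun {x y} hx hy => by
        obtain ⟨k, hk⟩ := hc.1.1 x
        have := hk 1
        rw [smul_eq_mul, mul_one, t1, smul_eq_mul, mul_one] at this
        have h3 := hk y
        rw [← this, smul_eq_mul, smul_eq_mul, hx, hy] at h3
        exact h3
      add_mem' := fun {x y} hx hy => by
        show t (x + y) = x + y
        rw [map_add, hx, hy]
      algebraMap_mem' := fun c => by
        show t (algebraMap F K c) = _
        rw [Algebra.algebraMap_eq_smul_one, map_smul, t1] }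
  rcases (Subalgebra.isSimpleOrder_of_finrank_prime F K hp).eq_bot_or_eq_top S with h | h
  · have : a ∈ S := by
      show t a = a
      rw [e, h1 _ (right_mem_pl _ _), zero_smul, add_zero]
    rw [h] at this
    obtain ⟨c, hc⟩ := Algebra.mem_bot.1 this
    exact ha (mem_pt.2 ⟨c, by rw [← hc, Algebra.algebraMap_eq_smul_one]⟩)
  · have : t b = b := (h ▸ Algebra.mem_top : b ∈ S)
    rw [e, h2] at this
    simp at this

/-- `M` extended by the scalars -/
def ext (M : Subgroup (K ≃ₗ[F] K)) : Subgroup (K ≃ₗ[F] K) where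
  carrier := {g | ∃ c : F, c ≠ 0 ∧ ∃ m ∈ M, ∀ x, g x = c • m x}
  one_mem' := ⟨1, one_ne_zero, 1, M.one_mem, fun x => by simp⟩
  mul_mem' := by
    rintro a b ⟨c, c0, m, hm, h1⟩ ⟨d, d0, m', hm', h2⟩
    exact ⟨c * d, mul_ne_zero c0 d0, m * m', M.mul_mem hm hm', fun x => by
      rw [mul_app, mul_app, h1, h2, map_smul, smul_smul]⟩
  inv_mem' := by
    rintro a ⟨c, c0, m, hm, h1⟩
    exact ⟨c⁻¹, inv_ne_zero c0, m⁻¹, M.inv_mem hm, fun x => a.injective (by
      rw [app_inv_app, h1, map_smul, app_inv_app, smul_inv_smul₀ c0])⟩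

theorem GamL_isMaximalIn_self (hp : (Module.finrank F K).Prime) (h13 : 13 ≤ Module.finrank F K) :
    Geo.IsMaximalIn (SLV F K) (GamL F K K ⊓ SLV F K) := by
  refine isMaximalIn_of inf_le_right (exists_not_GamL hp (by omega)) fun M h1 h2 g hg hg' => ?_
  have hle : M ≤ ext M := fun m hm => ⟨1, one_ne_zero, m, hm, fun x => by simp⟩
  obtain ⟨σ, hσ, hσ'⟩ := exists_frob (F := F) (K := K) (hp.odd_of_ne_two (by omega))
  haveI : Finite (K ≃ₗ[F] K) := Finite.of_injective (fun φ => (φ : K → K)) DFunLike.coe_injective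
  have hmul : ∀ k : K, Algebra.norm F k = 1 → ∃ m ∈ M, ∀ x, m x = k * x := fun k hk => by
    have k0 : k ≠ 0 := Algebra.norm_ne_zero_iff.1 (hk ▸ one_ne_zero)
    refine ⟨(LinearEquiv.smulOfNeZero K K k k0).restrictScalars F,
      h1 ⟨restrictScalars_mem_GamL _, mem_SLV.2 ?_⟩, fun _ => rfl⟩
    rw [← hk, Algebra.norm_apply]
    exact congrArg _ (LinearMap.ext fun _ => rfl)
  have hns : ∀ (c : F) (k : K), Algebra.norm F (c • k) =
      c ^ Module.finrank F K * Algebra.norm F k := fun c k => by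
    rw [Algebra.smul_def, map_mul, Algebra.norm_algebraMap]
  have D : Sg F K (G := ext M) ⟨σ, hle (h1 hσ)⟩ (Module.finrank F K) :=
    { rank := rfl, prime := hp, h13 := h13
      faith := fun g hg => Subtype.ext (LinearEquiv.ext hg)
      fr := hσ'
      mu := fun k k0 => by
        constructor
        · rintro ⟨⟨u, c, c0, m, hm, e⟩, hu⟩
          refine ⟨c, ?_⟩
          have : Algebra.lmul F K k = c • (m : K →ₗ[F] K) := LinearMap.ext fun x => (hu x).symm.trans (e x)
          rw [Algebra.norm_apply, this, LinearMap.det_smul, mem_SLV.1 (h2 hm), mul_one]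
        · rintro ⟨c, hc⟩
          have c0 : c ≠ 0 := by
            rintro rfl
            rw [zero_pow hp.ne_zero] at hc
            exact k0 (Algebra.norm_eq_zero_iff.1 hc)
          obtain ⟨m, hm, e⟩ := hmul (c⁻¹ • k) (by
            rw [hns, hc, ← mul_pow, inv_mul_cancel₀ c0, one_pow])
          exact ⟨⟨(LinearEquiv.smulOfNeZero K K k k0).restrictScalars F, c, c0, m, hm, fun x => by
            rw [e, smul_mul_assoc, smul_inv_smul₀ c0]; rfl⟩, fun _ => rfl⟩ }
  rcases D.t2_or with h | h
  · have hS := SLV_le_of_t2 hp (by omega) (ext M)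
      (fun c hc => let ⟨u, hu⟩ := D.hZ c hc; ⟨u, u.2, hu⟩) h
    refine SLV_le_of_tv fun φ v e => ?_
    obtain ⟨t, ht, e1⟩ := hasTv_SLV e
    obtain ⟨c, c0, m, hm, e2⟩ := hS ht
    have hk : ∀ (k : ℕ) x, (c ^ k) • (m ^ k) x = x + ((k : F) * φ x) • v := by
      intro k
      induction k with
      | zero => simp
      | succ k ih =>
        intro x
        rw [pow_succ' m, mul_app, pow_succ, ← smul_smul, ← e2, ← map_smul, ih, e1]
        simp only [map_add, map_smul, e, smul_eq_mul, mul_zero, add_zero, Nat.cast_add, Nat.cast_one]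
        module
    haveI := Fintype.ofFinite F
    have hq := two_le_q (F := F)
    refine ⟨(m ^ (Nat.card F - 1))⁻¹, M.inv_mem (M.pow_mem hm _), fun x => ?_⟩
    apply (m ^ (Nat.card F - 1)).injective
    have h3 := hk (Nat.card F - 1) (x + φ x • v)
    rw [Nat.cast_sub (by omega), Nat.card_eq_fintype_card, FiniteField.pow_card_sub_one_eq_one c c0,
      FiniteField.cast_card_eq_zero, one_smul] at h3
    rw [app_inv_app, Nat.card_eq_fintype_card, h3]
    simp [e]
  · exact absurd ⟨h ⟨g, hle hg⟩, h2 hg⟩ hg'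

theorem GamL_isMaximalIn_one {V : Type*} [AddCommGroup V] [Module F V] [Module K V]
    [IsScalarTower F K V] (hV : Module.finrank K V = 1) (hp : (Module.finrank F K).Prime)
    (h13 : 13 ≤ Module.finrank F K) : Geo.IsMaximalIn (SLV F V) (GamL F K V ⊓ SLV F V) := by
  haveI : Module.Finite K V := Module.finite_of_finrank_pos (by omega)
  let e : V ≃ₗ[K] K := LinearEquiv.ofFinrankEq V K (by rw [hV, Module.finrank_self])
  let e' : V ≃ₗ[F] K := e.restrictScalars F
  let c : (V ≃ₗ[F] V) ≃* (K ≃ₗ[F] K) :=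
    { toFun := fun g => (e'.symm.trans g).trans e'
      invFun := fun g => (e'.trans g).trans e'.symm
      left_inv := fun g => LinearEquiv.ext fun x => by simp
      right_inv := fun g => LinearEquiv.ext fun x => by simp
      map_mul' := fun g h => LinearEquiv.ext fun x => by simp }
  have hc : ∀ g x, c g x = e (g (e.symm x)) := fun _ _ => rfl
  have h1 : ∀ g, g ∈ SLV F V ↔ c g ∈ SLV F K := fun g => by
    rw [mem_SLV, mem_SLV, ← LinearMap.det_conj (g : V →ₗ[F] V) e']
    rfl
  have key : ∀ (g : V ≃ₗ[F] V) (k k' : K), (∀ v, g (k • v) = k' • g v) ↔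
      ∀ v, c g (k • v) = k' • c g v := fun g k k' => by
    constructor
    · intro h v; rw [hc, hc, map_smul, h, map_smul]
    · intro h v
      have := h (e v)
      rw [hc, hc, ← map_smul, e.symm_apply_apply, e.symm_apply_apply, ← map_smul] at this
      exact e.injective this
  refine isMaximalIn_of_equiv c (H' := GamL F K K ⊓ SLV F K) h1
    (fun g => and_congr ?_ (h1 g)) (GamL_isMaximalIn_self hp h13)
  exact and_congr (forall_congr' fun k => exists_congr fun k' => key g k k')
    (forall_congr' fun k' => exists_congr fun k => key g k k')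

end Cfsg.Agent.Sing
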